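import Cfsg.Agent.Lib.Helper32.Scn.Tools

/-!
# S1904 package MD (helper27): deep levels are trivial.
-/

set_option autoImplicit false

universe u

namespace Cfsg.Agent.Lib.Helper27.Scn

open Cfsg.Agent.Lib.Helper32.Scn

variable {X : Type u} [Group X]

/-- the commutator `[x, m] = x m x⁻¹ m⁻¹`. -/
def cm (x m : X) : X := x * m * x⁻¹ * m⁻¹

theorem cm_mem {M : Subgroup X} (hn : M.Normal) (x : X) {m : X} (hm : m ∈ M) : cm x m ∈ M :=
  M.mul_mem (hn.conj_mem m hm x) (M.inv_mem hm)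

theorem cm_mul {M : Subgroup X} (hn : M.Normal) (hab : ∀ a ∈ M, ∀ b ∈ M, a * b = b * a)
    (x : X) {m m' : X} (hm : m ∈ M) (hm' : m' ∈ M) : cm x (m * m') = cm x m * cm x m' := by
  have h1 : (x * m' * x⁻¹ * m'⁻¹) * m⁻¹ = m⁻¹ * (x * m' * x⁻¹ * m'⁻¹) :=
    hab _ (cm_mem hn x hm') _ (M.inv_mem hm)
  unfold cm
  calc x * (m * m') * x⁻¹ * (m * m')⁻¹
      = (x * m * x⁻¹) * ((x * m' * x⁻¹ * m'⁻¹) * m⁻¹) := by group
    _ = (x * m * x⁻¹) * (m⁻¹ * (x * m' * x⁻¹ * m'⁻¹)) := by rw [h1]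
    _ = x * m * x⁻¹ * m⁻¹ * (x * m' * x⁻¹ * m'⁻¹) := by group

theorem cm_one (x : X) : cm x 1 = 1 := by unfold cm; group

theorem cm_of_mem {M : Subgroup X} (hab : ∀ a ∈ M, ∀ b ∈ M, a * b = b * a) {x m : X}
    (hx : x ∈ M) (hm : m ∈ M) : cm x m = 1 := by
  unfold cm
  rw [hab x hx m hm]; group

theorem cm_mul_left (x y m : X) : cm (x * y) m = cm x (cm y m) * cm y m * cm x m := by
  unfold cm; group

theorem cm_aut (ψ : MulAut X) (x m : X) : cm (ψ x) (ψ m) = ψ (cm x m) := by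
  unfold cm; simp [map_mul, map_inv]

theorem cm_mul_right_mem {M : Subgroup X} (hab : ∀ a ∈ M, ∀ b ∈ M, a * b = b * a) (x : X)
    {m₀ m : X} (hm₀ : m₀ ∈ M) (hm : m ∈ M) : cm (x * m₀) m = cm x m := by
  unfold cm
  have h1 : m₀ * m = m * m₀ := hab m₀ hm₀ m hm
  calc x * m₀ * m * (x * m₀)⁻¹ * m⁻¹ = x * (m₀ * m) * m₀⁻¹ * x⁻¹ * m⁻¹ := by group
    _ = x * (m * m₀) * m₀⁻¹ * x⁻¹ * m⁻¹ := by rw [h1]
    _ = x * m * x⁻¹ * m⁻¹ := by group

theorem cm_inv_left (x m : X) : cm x⁻¹ m = (cm x (x⁻¹ * m * x))⁻¹ := by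
  unfold cm; group

theorem lv_mul_mem {M : Subgroup X} (hab : ∀ a ∈ M, ∀ b ∈ M, a * b = b * a) {k : ℕ}
    {x m₀ : X} (hx : Lv M k x) (hm₀ : m₀ ∈ M) : Lv M k (x * m₀) := by
  intro m hm
  have h0 := hx m hm
  have e : (x * m₀) * m * (x * m₀)⁻¹ * m⁻¹ = x * m * x⁻¹ * m⁻¹ :=
    cm_mul_right_mem hab x hm₀ hm
  rw [e]; exact h0

theorem lv_inv {M : Subgroup X} (hn : M.Normal) {k : ℕ} {x : X} (hx : Lv M k x) :
    Lv M k x⁻¹ := by
  intro m hm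
  have h1 : x⁻¹ * m * x ∈ M := by
    have h0 := hn.conj_mem m hm x⁻¹
    simpa using h0
  have h2 := hx _ h1
  have e : x⁻¹ * m * x⁻¹⁻¹ * m⁻¹ = (x * (x⁻¹ * m * x) * x⁻¹ * (x⁻¹ * m * x)⁻¹)⁻¹ :=
    cm_inv_left x m
  rw [e, inv_pow, h2, inv_one]

theorem lv_aut {M : Subgroup X} {A : Subgroup (MulAut X)}
    (hinv : ∀ ψ ∈ A, ∀ m ∈ M, ψ m ∈ M) {ψ : MulAut X} (hψ : ψ ∈ A) {k : ℕ} {x : X}
    (hx : Lv M k x) : Lv M k (ψ x) := by
  intro m hm
  have h1 : ψ⁻¹ m ∈ M := hinv ψ⁻¹ (A.inv_mem hψ) m hm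
  have h2 := hx _ h1
  have e : ψ x * m * (ψ x)⁻¹ * m⁻¹ = ψ (x * (ψ⁻¹ m) * x⁻¹ * (ψ⁻¹ m)⁻¹) := by
    simp [map_mul, map_inv]
  rw [e, ← map_pow, h2, map_one]

theorem lv_mul {M : Subgroup X} (hn : M.Normal) (hab : ∀ a ∈ M, ∀ b ∈ M, a * b = b * a)
    {k : ℕ} {x y : X} (hx : Lv M k x) (hy : Lv M k y) : Lv M k (x * y) := by
  intro m hm
  have e : (x * y) * m * (x * y)⁻¹ * m⁻¹ = cm x (cm y m) * cm y m * cm x m :=
    cm_mul_left x y m
  have hym : cm y m ∈ M := cm_mem hn y hm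
  have hxm : cm x m ∈ M := cm_mem hn x hm
  have hxym : cm x (cm y m) ∈ M := cm_mem hn x hym
  have h1 : (cm x (cm y m)) ^ (2 ^ k) = 1 := hx _ hym
  have h2 : (cm y m) ^ (2 ^ k) = 1 := hy m hm
  have h3 : (cm x m) ^ (2 ^ k) = 1 := hx m hm
  rw [e, Commute.mul_pow (show Commute (cm x (cm y m) * cm y m) (cm x m) from
      hab _ (M.mul_mem hxym hym) _ hxm),
    Commute.mul_pow (show Commute (cm x (cm y m)) (cm y m) from hab _ hxym _ hym), h1, h2, h3]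
  simp

section ctx

variable {A : Subgroup (MulAut X)} {φ : MulAut X} {M : Subgroup X} {n : ℕ}

theorem mctx_facts (hM : MCtx X A φ M n) :
    omZ X ≤ M ∧ ∀ b ∈ M, b * b = 1 → b ∈ omZ X := by
  obtain ⟨m, hm, hmV⟩ := hM.c.ne
  apply hM.c.b.abel M hM.c.nrm hM.c.inv hM.c.ab
  intro hbot
  rw [hbot, Subgroup.mem_bot] at hm
  exact hmV (hm ▸ (omZ X).one_mem)

theorem pi_mul (hM : MCtx X A φ M n) {a b : X} (ha : a ∈ M) (hb : b ∈ M) :
    (a * b) ^ (2 ^ (n - 1)) = a ^ (2 ^ (n - 1)) * b ^ (2 ^ (n - 1)) :=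
  Commute.mul_pow (show Commute a b from hM.c.ab a ha b hb) _

theorem two_pow_pred (hM : MCtx X A φ M n) : 2 * 2 ^ (n - 1) = 2 ^ n := by
  have h := hM.n2
  have h1 : n = (n - 1) + 1 := by omega
  rw [← pow_succ', ← h1]

theorem pi_mem (hM : MCtx X A φ M n) {m : X} (hm : m ∈ M) : m ^ (2 ^ (n - 1)) ∈ omZ X := by
  apply (mctx_facts hM).2 _ (M.pow_mem hm _)
  rw [← pow_add, ← two_mul, two_pow_pred hM]
  exact hM.exp m hm

theorem pi_sq (hM : MCtx X A φ M n) {u : X} (hu : u ∈ M) : (u * u) ^ (2 ^ (n - 1)) = 1 := by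
  rw [← pow_two, ← pow_mul, two_pow_pred hM]
  exact hM.exp u hu

theorem pi_eq (hM : MCtx X A φ M n) {m m' : X} (hm : m ∈ M) (hm' : m' ∈ M)
    (h : m ^ (2 ^ (n - 1)) = m' ^ (2 ^ (n - 1))) : ∃ u ∈ M, m = u * u * m' := by
  have h1 : (m * m'⁻¹) ^ (2 ^ (n - 1)) = 1 := by
    rw [pi_mul hM hm (M.inv_mem hm'), h, inv_pow, mul_inv_cancel]
  obtain ⟨u, hu, hu2⟩ := hM.sqr _ (M.mul_mem hm (M.inv_mem hm')) h1
  exact ⟨u, hu, by rw [← hu2]; group⟩

/-- `γ_x(m) = [x,m]^(2^j)`. -/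
def gk (j : ℕ) (x m : X) : X := (cm x m) ^ (2 ^ j)

theorem gk_mem (hM : MCtx X A φ M n) {j : ℕ} {x : X} (hx : Lv M (j + 1) x) {m : X}
    (hm : m ∈ M) : gk j x m ∈ omZ X := by
  apply (mctx_facts hM).2 _ (M.pow_mem (cm_mem hM.c.nrm x hm) _)
  rw [← pow_add, ← two_mul, ← pow_succ']
  exact hx m hm

theorem gk_mul (hM : MCtx X A φ M n) (j : ℕ) (x : X) {m m' : X} (hm : m ∈ M) (hm' : m' ∈ M) :
    gk j x (m * m') = gk j x m * gk j x m' := by
  unfold gk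
  rw [cm_mul hM.c.nrm hM.c.ab x hm hm']
  exact Commute.mul_pow (show Commute (cm x m) (cm x m') from
    hM.c.ab _ (cm_mem hM.c.nrm x hm) _ (cm_mem hM.c.nrm x hm')) _

theorem gk_sq (hM : MCtx X A φ M n) {j : ℕ} {x : X} (hx : Lv M (j + 1) x) {u : X}
    (hu : u ∈ M) : gk j x (u * u) = 1 := by
  unfold gk
  rw [cm_mul hM.c.nrm hM.c.ab x hu hu, ← pow_two, ← pow_mul, ← pow_succ']
  exact hx u hu

theorem gk_one (j : ℕ) (x : X) : gk j x 1 = 1 := by unfold gk; rw [cm_one, one_pow]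

theorem gk_congr (hM : MCtx X A φ M n) {j : ℕ} {x : X} (hx : Lv M (j + 1) x) {m m' : X}
    (hm : m ∈ M) (hm' : m' ∈ M) (h : m ^ (2 ^ (n - 1)) = m' ^ (2 ^ (n - 1))) :
    gk j x m = gk j x m' := by
  obtain ⟨u, hu, rfl⟩ := pi_eq hM hm hm' h
  rw [gk_mul hM j x (M.mul_mem hu hu) hm', gk_sq hM hx hu, one_mul]

theorem gk_mul_left (hM : MCtx X A φ M n) (hT : MT X M n) {j : ℕ} {x y : X}
    (hx : Lv M (j + 1) x) (_hy : Lv M (j + 1) y) {m : X} (hm : m ∈ M) :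
    gk j (x * y) m = gk j x m * gk j y m := by
  have hym : cm y m ∈ M := cm_mem hM.c.nrm y hm
  have hxm : cm x m ∈ M := cm_mem hM.c.nrm x hm
  have hxym : cm x (cm y m) ∈ M := cm_mem hM.c.nrm x hym
  obtain ⟨u, hu, hu2⟩ := hT.sqc y m hm
  have h1 : (cm x (cm y m)) ^ (2 ^ j) = 1 := by
    have h0 : cm y m = u * u := hu2
    rw [h0]
    exact gk_sq hM hx hu
  unfold gk
  rw [cm_mul_left, Commute.mul_pow (show Commute (cm x (cm y m) * cm y m) (cm x m) from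
      hM.c.ab _ (M.mul_mem hxym hym) _ hxm),
    Commute.mul_pow (show Commute (cm x (cm y m)) (cm y m) from hM.c.ab _ hxym _ hym), h1,
    one_mul]
  exact hM.c.ab _ (M.pow_mem hym _) _ (M.pow_mem hxm _)

theorem gk_aut (j : ℕ) (ψ : MulAut X) (x m : X) : gk j (ψ x) (ψ m) = ψ (gk j x m) := by
  unfold gk; rw [cm_aut, map_pow]

theorem V_four (h : BCtx X A φ) {v w : X} (hv : v ∈ omZ X) (hw : w ∈ omZ X) (hv1 : v ≠ 1)
    (hw1 : w ≠ 1) (hwv : w ≠ v) : ∀ u ∈ omZ X, u = 1 ∨ u = v ∨ u = w ∨ u = v * w := by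
  intro u hu
  have key : φ v = v * φ (φ v) := by
    have h1 := h.mul_phi (h.phi_mem (h.phi_mem hv))
    rw [h.phi3 hv] at h1
    calc φ v = φ (φ v) * v := h1.symm
      _ = v * φ (φ v) := omZ_comm hv _
  rcases h.V_cases hv hv1 w hw with hc | hc | hc | hc
  · exact absurd hc hw1
  · exact absurd hc hwv
  · subst hc
    rcases h.V_cases hv hv1 u hu with h1 | h1 | h1 | h1
    · exact Or.inl h1
    · exact Or.inr (Or.inl h1)
    · exact Or.inr (Or.inr (Or.inl h1))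
    · exact Or.inr (Or.inr (Or.inr (by rw [h1, h.mul_phi hv])))
  · subst hc
    rcases h.V_cases hv hv1 u hu with h1 | h1 | h1 | h1
    · exact Or.inl h1
    · exact Or.inr (Or.inl h1)
    · exact Or.inr (Or.inr (Or.inr (by rw [h1]; exact key)))
    · exact Or.inr (Or.inr (Or.inl h1))

theorem ker_all (hM : MCtx X A φ M n) {j : ℕ} {x : X} (hx : Lv M (j + 1) x) {m₁ m₂ : X}
    (h1 : m₁ ∈ M) (h2 : m₂ ∈ M) (hg1 : gk j x m₁ = 1) (hg2 : gk j x m₂ = 1)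
    (hp1 : m₁ ^ (2 ^ (n - 1)) ≠ 1) (hp2 : m₂ ^ (2 ^ (n - 1)) ≠ 1)
    (hp12 : m₂ ^ (2 ^ (n - 1)) ≠ m₁ ^ (2 ^ (n - 1))) : ∀ m ∈ M, gk j x m = 1 := by
  intro m hm
  rcases V_four hM.c.b (pi_mem hM h1) (pi_mem hM h2) hp1 hp2 hp12 _ (pi_mem hM hm)
    with h | h | h | h
  · rw [gk_congr hM hx hm M.one_mem (by rw [h, one_pow]), gk_one]
  · rw [gk_congr hM hx hm h1 h, hg1]
  · rw [gk_congr hM hx hm h2 h, hg2]
  · rw [gk_congr hM hx hm (M.mul_mem h1 h2) (by rw [h, pi_mul hM h1 h2]), gk_mul hM j x h1 h2,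
      hg1, hg2, one_mul]

theorem step1 (hM : MCtx X A φ M n) (hT : MT X M n) {j : ℕ}
    (hlev : ∀ y : X, Lv M j y → y ∈ M) {x : X} (hxM : x ∉ M) (hx : Lv M (j + 1) x) :
    ∃ x' : X, x' ∉ M ∧ Lv M (j + 1) x' ∧
      ∀ m ∈ M, gk j x' m = 1 → m ^ (2 ^ (n - 1)) = 1 := by
  have hb := hM.c.b
  have hVne : ∃ v ∈ omZ X, v ≠ 1 := by
    by_contra hcon
    push Not at hcon
    have h0 : omZ X = ⊥ := (Subgroup.eq_bot_iff_forall _).mpr hcon
    have h1 := hb.Vcard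
    rw [h0] at h1
    simp at h1
  have hnotM : ∀ x' : X, (∀ m ∈ M, gk j x' m = 1 → m ^ (2 ^ (n - 1)) = 1) → x' ∉ M := by
    intro x' hinj hx'
    obtain ⟨v, hv, hv1⟩ := hVne
    obtain ⟨m, hm, hmv⟩ := hM.top v hv
    apply hv1
    rw [← hmv]
    apply hinj m hm
    unfold gk
    rw [cm_of_mem hM.c.ab hx' hm, one_pow]
  by_cases hinj : ∀ m ∈ M, gk j x m = 1 → m ^ (2 ^ (n - 1)) = 1
  · exact ⟨x, hxM, hx, hinj⟩
  · push Not at hinj
    obtain ⟨m₁, hm₁, hg₁, hp₁⟩ := hinj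
    have hφx : Lv M (j + 1) (φ x) := lv_aut hM.c.inv hb.φmem hx
    have hx' : Lv M (j + 1) (x * φ x) := lv_mul hM.c.nrm hM.c.ab hx hφx
    have hall : (∀ m ∈ M, gk j x m = 1) → False := fun h => hxM (hlev x h)
    have hinj' : ∀ m ∈ M, gk j (x * φ x) m = 1 → m ^ (2 ^ (n - 1)) = 1 := by
      intro m hm hg
      by_contra hpi
      obtain ⟨m', hm', rfl⟩ : ∃ m' ∈ M, φ m' = m :=
        ⟨φ⁻¹ m, hM.c.inv φ⁻¹ (A.inv_mem hb.φmem) m hm, by simp⟩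
      rw [gk_mul_left hM hT hx hφx hm, gk_aut] at hg
      have hgV : gk j x m' ∈ omZ X := gk_mem hM hx hm'
      have hgφ : gk j x (φ m') = φ (gk j x m') := by
        have h2 : φ (gk j x m') * φ (gk j x m') = 1 := by
          rw [← map_mul, omZ_sq hgV, map_one]
        calc gk j x (φ m') = gk j x (φ m') * (φ (gk j x m') * φ (gk j x m')) := by
              rw [h2, mul_one]
          _ = (gk j x (φ m') * φ (gk j x m')) * φ (gk j x m') := by rw [mul_assoc]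
          _ = φ (gk j x m') := by rw [hg, one_mul]
      have hpiφ : (φ m') ^ (2 ^ (n - 1)) = φ (m' ^ (2 ^ (n - 1))) := by rw [map_pow]
      have hv' : m' ^ (2 ^ (n - 1)) ∈ omZ X := pi_mem hM hm'
      have hv'1 : m' ^ (2 ^ (n - 1)) ≠ 1 := by
        intro h; apply hpi; rw [hpiφ, h, map_one]
      have hv₁ : m₁ ^ (2 ^ (n - 1)) ∈ omZ X := pi_mem hM hm₁
      rcases hb.V_cases hv₁ hp₁ _ hv' with hc | hc | hc | hc
      · exact hv'1 hc
      · have e1 : gk j x m' = 1 := by rw [gk_congr hM hx hm' hm₁ hc, hg₁]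
        have e2 : gk j x (φ m') = 1 := by rw [hgφ, e1, map_one]
        apply hall
        apply ker_all hM hx hm₁ hm hg₁ e2 hp₁
        · rw [hpiφ, hc]; exact hb.phi_ne_one hp₁
        · rw [hpiφ, hc]; exact hb.φV _ hv₁ hp₁
      · have e0 : (φ m') ^ (2 ^ (n - 1)) = (m₁ * m') ^ (2 ^ (n - 1)) := by
          rw [hpiφ, pi_mul hM hm₁ hm', hc, hb.mul_phi hv₁]
        have e1 : gk j x (φ m') = gk j x m' := by
          rw [gk_congr hM hx hm (M.mul_mem hm₁ hm') e0, gk_mul hM j x hm₁ hm', hg₁, one_mul]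
        have e2 : gk j x m' = 1 := by
          by_contra hne
          exact hb.φV _ hgV hne (by rw [← hgφ, e1])
        apply hall
        apply ker_all hM hx hm₁ hm' hg₁ e2 hp₁
        · exact hv'1
        · rw [hc]; exact hb.φV _ hv₁ hp₁
      · have e0 : (φ m') ^ (2 ^ (n - 1)) = m₁ ^ (2 ^ (n - 1)) := by
          rw [hpiφ, hc, hb.phi3 hv₁]
        have e1 : gk j x (φ m') = 1 := by rw [gk_congr hM hx hm hm₁ e0, hg₁]
        have e2 : gk j x m' = 1 := by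
          have h3 : φ (gk j x m') = 1 := by rw [← hgφ, e1]
          have h4 : φ (gk j x m') = φ 1 := by rw [h3, map_one]
          exact φ.injective h4
        apply hall
        apply ker_all hM hx hm₁ hm' hg₁ e2 hp₁
        · exact hv'1
        · rw [hc]; exact hb.phi2_ne hv₁ hp₁
    exact ⟨x * φ x, hnotM _ hinj', hx', hinj'⟩

theorem step3 (hM : MCtx X A φ M n) {j : ℕ} (hjn : j + 3 ≤ n) {y : X}
    (hy : Lv M (j + 1) y) :
    ∀ d l : ℕ, l + d = n → ∀ m ∈ M, m ^ (2 ^ l) = 1 → (cm y m) ^ (2 ^ (l - 2)) = 1 := by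
  intro d
  induction d with
  | zero =>
    intro l hl m hm hml
    have h1' : (cm y m) ^ (2 ^ (j + 1)) = 1 := hy m hm
    have h2 : l - 2 = (j + 1) + (n - 3 - j) := by omega
    rw [h2, pow_add, pow_mul, h1', one_pow]
  | succ d ih =>
    intro l hl m hm hml
    have hpi : m ^ (2 ^ (n - 1)) = 1 := by
      have h2 : n - 1 = l + d := by omega
      rw [h2, pow_add, pow_mul, hml, one_pow]
    obtain ⟨u, hu, rfl⟩ := hM.sqr m hm hpi
    have hu2 : u ^ (2 ^ (l + 1)) = 1 := by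
      have e : 2 ^ (l + 1) = 2 * 2 ^ l := by ring
      rw [e, pow_mul, pow_two]; exact hml
    have h3 := ih (l + 1) (by omega) u hu hu2
    rw [cm_mul hM.c.nrm hM.c.ab y hu hu, ← pow_two, ← pow_mul]
    by_cases hl2 : 2 ≤ l
    · have h4 : 2 * 2 ^ (l - 2) = 2 ^ (l + 1 - 2) := by
        have h5 : l + 1 - 2 = (l - 2) + 1 := by omega
        rw [h5, pow_succ']
      rw [h4]; exact h3
    · have h4 : l + 1 - 2 = 0 := by omega
      rw [h4, pow_zero, pow_one] at h3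
      rw [h3, one_pow]

theorem step4 (hM : MCtx X A φ M n) {j : ℕ} (hjn : j + 3 ≤ n) :
    ∀ i : ℕ, ∀ y : X, Lv M (j + 1) y → i + 2 ≤ n → y * y ∈ M → (y * y) ^ (2 ^ i) = 1 →
      ∃ t : X, t * t = 1 ∧ ∃ m₀ ∈ M, t = y * m₀ := by
  intro i
  induction i with
  | zero =>
    intro y _ _ _ h
    exact ⟨y, by simpa using h, 1, M.one_mem, by simp⟩
  | succ i ih =>
    intro y hy hin hyM h
    have hpi : (y * y) ^ (2 ^ (n - 1)) = 1 := by
      have h2 : n - 1 = (i + 1) + (n - 2 - i) := by omega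
      rw [h2, pow_add, pow_mul, h, one_pow]
    obtain ⟨w, hw, hw2⟩ := hM.sqr _ hyM hpi
    have hy' : Lv M (j + 1) (y * w⁻¹) := lv_mul_mem hM.c.ab hy (M.inv_mem hw)
    have hsq : (y * w⁻¹) * (y * w⁻¹) = cm y⁻¹ w := by
      calc (y * w⁻¹) * (y * w⁻¹) = y⁻¹ * (y * y) * w⁻¹ * y * w⁻¹ := by group
        _ = y⁻¹ * (w * w) * w⁻¹ * y * w⁻¹ := by rw [hw2]
        _ = cm y⁻¹ w := by unfold cm; group
    have hw4 : w ^ (2 ^ (i + 2)) = 1 := by
      have e : 2 ^ (i + 2) = 2 * 2 ^ (i + 1) := by ring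
      rw [e, pow_mul, pow_two, ← hw2]; exact h
    have h3 := step3 hM hjn (lv_inv hM.c.nrm hy) (n - (i + 2)) (i + 2) (by omega) w hw hw4
    have h3' : (cm y⁻¹ w) ^ (2 ^ i) = 1 := by simpa using h3
    obtain ⟨t, ht, m₀, hm₀, rfl⟩ := ih (y * w⁻¹) hy' (by omega)
      (by rw [hsq]; exact cm_mem hM.c.nrm _ hw) (by rw [hsq]; exact h3')
    exact ⟨_, ht, w⁻¹ * m₀, M.mul_mem (M.inv_mem hw) hm₀, by group⟩

end ctx

/-- Package MD of S1904. -/
theorem lemMD : LemMD.{u} := by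
  intro X _ _ A φ M n hM hT k hk1 hkn hlev x hx
  obtain ⟨j, rfl⟩ := Nat.exists_eq_add_of_le' hk1
  have hlev' : ∀ y : X, Lv M j y → y ∈ M := by
    intro y hy; apply hlev; simpa using hy
  have hjn : j + 3 ≤ n := by omega
  by_contra hxM
  obtain ⟨x', hx'M, hx', hinj⟩ := step1 hM hT hlev' hxM hx
  have hF := mctx_facts hM
  have hsqM : x' * x' ∈ M := hT.c2 (j + 1) (by omega) hlev x' hx'
  have hg : gk j x' (x' * x') = 1 := by
    unfold gk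
    have h0 : cm x' (x' * x') = 1 := by unfold cm; group
    rw [h0, one_pow]
  obtain ⟨u, hu, hu2⟩ := hM.sqr _ hsqM (hinj _ hsqM hg)
  have hy : Lv M (j + 1) (x' * u⁻¹) := lv_mul_mem hM.c.ab hx' (M.inv_mem hu)
  have hsq : (x' * u⁻¹) * (x' * u⁻¹) = cm x'⁻¹ u := by
    calc (x' * u⁻¹) * (x' * u⁻¹) = x'⁻¹ * (x' * x') * u⁻¹ * x' * u⁻¹ := by group
      _ = x'⁻¹ * (u * u) * u⁻¹ * x' * u⁻¹ := by rw [hu2]
      _ = cm x'⁻¹ u := by unfold cm; group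
  have hsq1 : ((x' * u⁻¹) * (x' * u⁻¹)) ^ (2 ^ (j + 1)) = 1 := by
    rw [hsq]; exact lv_inv hM.c.nrm hx' u hu
  obtain ⟨t, htt, m₀, hm₀, ht⟩ := step4 hM hjn (j + 1) (x' * u⁻¹) hy (by omega)
    (by rw [hsq]; exact cm_mem hM.c.nrm _ hu) hsq1
  have htM : t ∉ M := by
    intro h
    apply hx'M
    have h0 : x' = t * (m₀⁻¹ * u) := by rw [ht]; group
    rw [h0]; exact M.mul_mem h (M.mul_mem (M.inv_mem hm₀) hu)
  have hLt : Lv M (j + 1) t := by rw [ht]; exact lv_mul_mem hM.c.ab hy hm₀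
  apply htM
  apply hF.1
  apply hM.c.b.inv _ htt
  intro g
  have hc : g * t * g⁻¹ * t⁻¹ ∈ M := hT.c1 (j + 1) (by omega) hlev t hLt g
  have hct : (g * t * g⁻¹ * t⁻¹ * t) * (g * t * g⁻¹ * t⁻¹ * t) = 1 := by
    calc (g * t * g⁻¹ * t⁻¹ * t) * (g * t * g⁻¹ * t⁻¹ * t) = g * (t * t) * g⁻¹ := by group
      _ = 1 := by rw [htt]; group
  generalize g * t * g⁻¹ * t⁻¹ = c at hc hct ⊢
  have hcm : cm t c = (c * c)⁻¹ := by
    have ht_inv : t⁻¹ = t := inv_eq_of_mul_eq_one_left htt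
    have h1 : t * c * t = c⁻¹ := by
      calc t * c * t = c⁻¹ * ((c * t) * (c * t)) := by group
        _ = c⁻¹ := by rw [hct, mul_one]
    unfold cm
    rw [ht_inv, h1]; group
  have hpow : ∀ d l : ℕ, 1 ≤ l → l + d = n → c ^ (2 ^ l) = 1 := by
    intro d
    induction d with
    | zero =>
      intro l _ hl
      have hl' : l = n := by omega
      rw [hl']; exact hM.exp c hc
    | succ d ih =>
      intro l hl1 hl
      have h1 := ih (l + 1) (by omega) (by omega)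
      have h3 := step3 hM hjn hLt d (l + 1) (by omega) c hc h1
      rw [hcm, inv_pow, inv_eq_one, ← pow_two, ← pow_mul] at h3
      have e : 2 * 2 ^ (l + 1 - 2) = 2 ^ l := by
        have h5 : l + 1 - 2 = l - 1 := by omega
        have h6 : l = (l - 1) + 1 := by omega
        rw [h5, ← pow_succ', ← h6]
      rw [e] at h3; exact h3
  have hc2 : c * c = 1 := by
    have h0 := hpow (n - 1) 1 le_rfl (by have := hM.n2; omega)
    simpa [pow_two] using h0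
  exact hF.2 c hc hc2

end Cfsg.Agent.Lib.Helper27.Scn
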